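import Cfsg.Agent.Lib.ExtField.Top
import Cfsg.Agent.Lib.Geo.Parabolic

/-!
# Stabilizers of subspaces which contain a line are maximal in `GL`
-/

set_option autoImplicit false
set_option linter.unusedSectionVars false
set_option linter.style.haveILetI false

open Module Cfsg Cfsg.Geo Cfsg.Agent.Lib.ExtField.Basic Cfsg.Agent.Lib.ExtField.Spread
  Cfsg.Agent.Lib.ExtField.Top Cfsg.Agent.Lib.Geo.Basic Cfsg.Agent.Lib.Geo.Parabolic
open scoped Matrix MatrixGroups

namespace Cfsg.Agent.Lib.Affine.Line

variable {F : Type*} [Field F] [Fintype F] {n : ℕ}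

/-- The stabilizer of a line contains elements of all determinants. -/
theorem exists_stab_det {b : Fin n → F} (hb : b ≠ 0) (δ : Fˣ) :
    ∃ y ∈ subspaceStabilizer (Submodule.span F {b}), Matrix.GeneralLinearGroup.det y = δ := by
  have hu' : b ∉ (⊥ : Submodule F (Fin n → F)) := by
    simpa using hb
  obtain ⟨φ, -, hφ⟩ := exists_functional hu'
  let g := dilHom (F := F) (K := F) φ b hφ δ
  refine ⟨eL.symm g, ?_, ?_⟩
  · rw [mem_subspaceStabilizer_iff_forall_mem]
    intro v hv
    rw [← eL_apply, MulEquiv.apply_symm_apply, dilHom_apply]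
    exact Submodule.add_mem _ hv (Submodule.smul_mem _ _ (Submodule.mem_span_singleton_self b))
  · apply Units.ext
    rw [Matrix.GeneralLinearGroup.val_det_apply, ← det_eL, MulEquiv.apply_symm_apply]
    have := det_dilMap (F := F) (K := F) φ b hφ (δ : F)
    rw [Algebra.norm_self, MonoidHom.id_apply] at this
    exact this

/-- The stabilizer of a line is a coatom of `GL`. -/
theorem isCoatom_stab {b : Fin n → F} (hb : b ≠ 0) (hW1 : Submodule.span F {b} ≠ ⊤) :
    IsCoatom (subspaceStabilizer (Submodule.span F {b})) := by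
  set W := Submodule.span F {b} with hW
  have hW0 : W ≠ ⊥ := by
    simpa [hW] using hb
  have hmax := subspaceStabilizer_isMaximalIn W hW0 hW1
  refine ⟨?_, fun L hL => ?_⟩
  · intro h
    apply hmax.1.ne
    rw [h, top_inf_eq]
  obtain ⟨g, hgL, hgP⟩ := SetLike.exists_of_lt hL
  obtain ⟨h, hhP, hhd⟩ := exists_stab_det hb (Matrix.GeneralLinearGroup.det g)⁻¹
  have hgh : g * h ∈ L := L.mul_mem hgL (hL.le hhP)
  have hghP : g * h ∉ subspaceStabilizer W := by
    intro hmem
    apply hgP
    have := (subspaceStabilizer W).mul_mem hmem ((subspaceStabilizer W).inv_mem hhP)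
    simpa using this
  have hghSL : g * h ∈ specialLinear (Fin n) F := by
    change g * h ∈ (Matrix.GeneralLinearGroup.det : GL (Fin n) F →* Fˣ).ker
    rw [MonoidHom.mem_ker, map_mul, hhd, mul_inv_cancel]
  have hSL : specialLinear (Fin n) F ≤ L := by
    rcases hmax.2 (L ⊓ specialLinear (Fin n) F) (inf_le_inf_right _ hL.le) inf_le_right with h1 | h1
    · exfalso
      have : g * h ∈ L ⊓ specialLinear (Fin n) F := ⟨hgh, hghSL⟩
      rw [h1] at this
      exact hghP this.1
    · intro x hx
      have hx' : x ∈ L ⊓ specialLinear (Fin n) F := by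
        rw [h1]
        exact hx
      exact hx'.1
  rw [eq_top_iff]
  intro x _
  obtain ⟨y, hy, hyd⟩ := exists_stab_det hb (Matrix.GeneralLinearGroup.det x)
  have h1 : x * y⁻¹ ∈ specialLinear (Fin n) F := by
    change x * y⁻¹ ∈ (Matrix.GeneralLinearGroup.det : GL (Fin n) F →* Fˣ).ker
    rw [MonoidHom.mem_ker, map_mul, map_inv, hyd, mul_inv_cancel]
  have h2 := L.mul_mem (hSL h1) (hL.le hy)
  simpa using h2

end Cfsg.Agent.Lib.Affine.Line
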