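import Cfsg.Agent.Lib.Affine.Line

/-!
# The affine group `V ⋊ GL(V)`
-/

set_option autoImplicit false
set_option linter.unusedSectionVars false
set_option linter.style.haveILetI false

open Module Cfsg Cfsg.Geo Cfsg.Agent.Lib.ExtField.Basic Cfsg.Agent.Lib.ExtField.Spread
  Cfsg.Agent.Lib.ExtField.Top Cfsg.Agent.Lib.Geo.Basic Cfsg.Agent.Lib.Affine.Line
open scoped Matrix MatrixGroups
open SemidirectProduct

namespace Cfsg.Agent.Lib.Affine.Semi

variable {F : Type} [Field F] [Fintype F] {d : ℕ}

/-- The natural action of `GL` on `F^d`, written multiplicatively. -/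
def act : GL (Fin d) F →* MulAut (Multiplicative (Fin d → F)) where
  toFun q :=
    { toFun := fun v => Multiplicative.ofAdd ((q : Matrix (Fin d) (Fin d) F) *ᵥ v.toAdd)
      invFun := fun v => Multiplicative.ofAdd (((q⁻¹ : GL (Fin d) F) : Matrix _ _ F) *ᵥ v.toAdd)
      left_inv := fun v => by
        simp [Matrix.mulVec_mulVec]
      right_inv := fun v => by
        simp [Matrix.mulVec_mulVec]
      map_mul' := fun a b => by
        simp [Matrix.mulVec_add] }
  map_one' := by
    ext v
    simp
  map_mul' a b := by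
    ext v
    simp [Matrix.mulVec_mulVec]

theorem act_apply (q : GL (Fin d) F) (v : Multiplicative (Fin d → F)) :
    act q v = Multiplicative.ofAdd ((q : Matrix (Fin d) (Fin d) F) *ᵥ v.toAdd) := rfl

/-- The affine group. -/
abbrev AG (d : ℕ) (F : Type) [Field F] :=
  Multiplicative (Fin d → F) ⋊[(act : GL (Fin d) F →* MulAut (Multiplicative (Fin d → F)))] GL (Fin d) F

/-- Transitivity on nonzero vectors. -/
theorem exists_gl_mulVec (hm : ∀ w : Fin d → F, ∃ z, z ∉ Submodule.span F {w}) {v w : Fin d → F}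
    (hv : v ≠ 0) (hw : w ≠ 0) : ∃ q : GL (Fin d) F, (q : Matrix (Fin d) (Fin d) F) *ᵥ v = w := by
  have hM : ContainsM F (⊤ : Subgroup (Module.End F (Fin d → F))ˣ) := fun g _ _ _ => trivial
  obtain ⟨g, -, hg, -⟩ := exists_mem_apply_eq hM hm hv hw
  refine ⟨eL.symm g, ?_⟩
  rw [← eL_apply, MulEquiv.apply_symm_apply, hg]

theorem exists_notMem_span (hd : 2 ≤ d) (w : Fin d → F) : ∃ z, z ∉ Submodule.span F {w} := by
  by_contra hall
  push Not at hall
  have h1 : Submodule.span F {w} = ⊤ := eq_top_iff.mpr fun z _ => hall z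
  have h2 := finrank_span_le_card (R := F) ({w} : Set (Fin d → F))
  rw [h1, finrank_top, finrank_fin_fun] at h2
  simp at h2
  omega

/-- The complement of the translations. -/
abbrev MM (d : ℕ) (F : Type) [Field F] : Subgroup (AG d F) := (inr : _ →* AG d F).range

theorem inl_ne_mem {v : Fin d → F} (hv : v ≠ 0) : inl (Multiplicative.ofAdd v) ∉ MM d F := by
  rintro ⟨q, hq⟩
  have := congrArg (fun x : AG d F => x.left) hq
  simp only [left_inr, left_inl] at this
  exact hv (Multiplicative.ofAdd.injective this.symm)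

theorem isCoatom_MM (hd : 2 ≤ d) : IsCoatom (MM d F) := by
  classical
  have hm := exists_notMem_span (F := F) hd
  have : Nonempty (Fin d) := ⟨⟨0, by omega⟩⟩
  obtain ⟨v₀, hv₀⟩ : ∃ v₀ : Fin d → F, v₀ ≠ 0 := exists_ne 0
  refine ⟨?_, fun L hL => ?_⟩
  · intro h
    exact inl_ne_mem hv₀ (h ▸ Subgroup.mem_top _)
  obtain ⟨x, hxL, hxM⟩ := SetLike.exists_of_lt hL
  have hq : (inr x.right : AG d F) ∈ L := hL.le ⟨_, rfl⟩
  have hl : (inl x.left : AG d F) ∈ L := by
    have := L.mul_mem hxL (L.inv_mem hq)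
    have e : x * (inr x.right : AG d F)⁻¹ = inl x.left := by
      rw [mul_inv_eq_iff_eq_mul]
      exact (inl_left_mul_inr_right x).symm
    rwa [e] at this
  have hv : Multiplicative.toAdd x.left ≠ 0 := by
    intro h0
    apply hxM
    refine ⟨x.right, ?_⟩
    have : x.left = 1 := h0
    ext <;> simp [this]
  have hall : ∀ w : Fin d → F, (inl (Multiplicative.ofAdd w) : AG d F) ∈ L := by
    intro w
    by_cases hw : w = 0
    · subst hw
      exact L.one_mem
    obtain ⟨q, hq'⟩ := exists_gl_mulVec hm hv hw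
    have e : (inl (Multiplicative.ofAdd w) : AG d F) = inr q * inl x.left * inr q⁻¹ := by
      rw [← inl_aut, act_apply, hq']
    rw [e]
    exact L.mul_mem (L.mul_mem (hL.le ⟨_, rfl⟩) hl) (hL.le ⟨_, rfl⟩)
  rw [eq_top_iff]
  intro y _
  rw [← inl_left_mul_inr_right y]
  exact L.mul_mem (hall _) (hL.le ⟨_, rfl⟩)

theorem index_MM : (MM d F).index = Fintype.card F ^ d := by
  have h1 := Subgroup.index_mul_card (MM d F)
  rw [SemidirectProduct.card] at h1
  have h2 : Nat.card (MM d F) = Nat.card (GL (Fin d) F) :=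
    Nat.card_congr (MonoidHom.ofInjective inr_injective).toEquiv.symm
  rw [h2] at h1
  have hpos : 0 < Nat.card (GL (Fin d) F) := Nat.card_pos
  have h3 := Nat.eq_of_mul_eq_mul_right hpos h1
  rw [h3]
  have : Nat.card (Multiplicative (Fin d → F)) = Nat.card (Fin d → F) := rfl
  rw [this, Nat.card_eq_fintype_card, Fintype.card_fun]
  simp

/-- Main theorem. -/
theorem main (hd : 2 ≤ d) : ∃ M H K : Subgroup (AG d F), IsCoatom M ∧
    M.index = Fintype.card F ^ d ∧ H ≤ M ∧ IsCoatom (H.subgroupOf M) ∧ IsCoatom K ∧ H ≤ K ∧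
    ¬ IsCoatom (H.subgroupOf K) := by
  classical
  have hm := exists_notMem_span (F := F) hd
  have : Nonempty (Fin d) := ⟨⟨0, by omega⟩⟩
  obtain ⟨b, hb⟩ : ∃ b : Fin d → F, b ≠ 0 := exists_ne 0
  obtain ⟨c, hc⟩ := hm b
  have hW1 : Submodule.span F {b} ≠ ⊤ := fun h => hc (h ▸ Submodule.mem_top)
  set W := Submodule.span F {b} with hW
  have hbW : b ∈ W := Submodule.mem_span_singleton_self b
  have hP := isCoatom_stab hb hW1
  rw [← hW] at hP
  set P := subspaceStabilizer W with hPdef
  let H : Subgroup (AG d F) := P.map inr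
  let K : Subgroup (AG d F) := P.comap rightHom
  have hHK : H ≤ K := by
    rintro _ ⟨q, hq, rfl⟩
    change rightHom (inr q : AG d F) ∈ P
    rwa [rightHom_inr]
  have hKmem : ∀ x : AG d F, x ∈ K ↔ x.right ∈ P := fun x => Iff.rfl
  -- the intermediate group
  let J : Subgroup (AG d F) :=
    { carrier := {x | x.right ∈ P ∧ Multiplicative.toAdd x.left ∈ W}
      mul_mem' := by
        rintro x y ⟨hx1, hx2⟩ ⟨hy1, hy2⟩
        refine ⟨P.mul_mem hx1 hy1, ?_⟩
        rw [SemidirectProduct.mul_left, act_apply, toAdd_mul]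
        refine W.add_mem hx2 ?_
        exact (mem_subspaceStabilizer_iff_forall_mem W _).mp hx1 _ hy2
      one_mem' := ⟨P.one_mem, W.zero_mem⟩
      inv_mem' := by
        rintro x ⟨hx1, hx2⟩
        refine ⟨P.inv_mem hx1, ?_⟩
        rw [SemidirectProduct.inv_left, act_apply]
        refine (mem_subspaceStabilizer_iff_forall_mem W _).mp (P.inv_mem hx1) _ ?_
        rw [toAdd_inv]
        exact W.neg_mem hx2 }
  have hJmem : ∀ x : AG d F, x ∈ J ↔ x.right ∈ P ∧ Multiplicative.toAdd x.left ∈ W :=
    fun x => Iff.rfl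
  have hHJ : H ≤ J := by
    rintro _ ⟨q, hq, rfl⟩
    exact ⟨hq, W.zero_mem⟩
  have hJK : J ≤ K := fun x hx => hx.1
  obtain ⟨q₀, hq₀⟩ : ∃ q₀, q₀ ∉ P := by
    by_contra hall
    push Not at hall
    exact hP.1 (eq_top_iff.mpr fun x _ => hall x)
  refine ⟨MM d F, H, K, isCoatom_MM hd, index_MM, ?_, ?_, ?_, hHK, ?_⟩
  · rintro _ ⟨q, _, rfl⟩
    exact ⟨q, rfl⟩
  · -- H is maximal in M
    refine ⟨?_, fun L hL => ?_⟩
    · intro h
      have h1 : (⟨inr q₀, ⟨q₀, rfl⟩⟩ : MM d F) ∈ H.subgroupOf (MM d F) := by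
        rw [h]
        trivial
      obtain ⟨q, hq, hqe⟩ := Subgroup.mem_subgroupOf.mp h1
      have : q = q₀ := inr_injective hqe
      exact hq₀ (this ▸ hq)
    · -- the preimage
      let P' : Subgroup (GL (Fin d) F) :=
        L.comap ((inr : _ →* AG d F).codRestrict (MM d F) fun q => ⟨q, rfl⟩)
      have hPP' : P < P' := by
        refine lt_of_le_of_ne (fun q hq => ?_) ?_
        · apply hL.le
          exact Subgroup.mem_subgroupOf.mpr ⟨q, hq, rfl⟩
        · intro he
          obtain ⟨x, hxL, hxH⟩ := SetLike.exists_of_lt hL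
          obtain ⟨x₀, hx₀⟩ := x
          obtain ⟨q, rfl⟩ := hx₀
          have hq : q ∈ P' := hxL
          rw [← he] at hq
          exact hxH (Subgroup.mem_subgroupOf.mpr ⟨q, hq, rfl⟩)
      have htop := hP.2 _ hPP'
      rw [eq_top_iff]
      rintro ⟨x, q, rfl⟩ _
      have hq : q ∈ P' := by rw [htop]; trivial
      exact hq
  · -- K is maximal
    refine ⟨?_, fun L hL => ?_⟩
    · intro h
      have : (inr q₀ : AG d F) ∈ K := h ▸ Subgroup.mem_top _
      exact hq₀ this
    · obtain ⟨x, hxL, hxK⟩ := SetLike.exists_of_lt hL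
      have hPL : P < L.map rightHom := by
        refine lt_of_le_of_ne (fun q hq => ?_) ?_
        · exact ⟨inr q, hL.le (show rightHom (inr q : AG d F) ∈ P by rwa [rightHom_inr]), by simp⟩
        · intro he
          have : x.right ∈ L.map rightHom := ⟨x, hxL, rfl⟩
          rw [← he] at this
          exact hxK this
      have htop := hP.2 _ hPL
      have hker : ∀ n : Multiplicative (Fin d → F), (inl n : AG d F) ∈ L := by
        intro n
        apply hL.le
        change rightHom (inl n : AG d F) ∈ P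
        rw [rightHom_inl]
        exact P.one_mem
      rw [eq_top_iff]
      intro y _
      have hy : y.right ∈ L.map rightHom := by rw [htop]; trivial
      obtain ⟨l, hl, hly⟩ := hy
      have hly' : l.right = y.right := hly
      have hz : (y * l⁻¹).right = 1 := by
        rw [SemidirectProduct.mul_right, SemidirectProduct.inv_right, hly', mul_inv_cancel]
      have e1 : y * l⁻¹ = inl (y * l⁻¹).left := by
        conv_lhs => rw [← inl_left_mul_inr_right (y * l⁻¹), hz]
        simp
      have h2 : y * l⁻¹ ∈ L := by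
        rw [e1]
        exact hker _
      have h3 := L.mul_mem h2 hl
      simpa using h3
  · -- H is not maximal in K
    intro hco
    have hinK : ∀ v : Fin d → F, (inl (Multiplicative.ofAdd v) : AG d F) ∈ K := by
      intro v
      change rightHom (inl (Multiplicative.ofAdd v) : AG d F) ∈ P
      rw [rightHom_inl]
      exact P.one_mem
    have hlt : H.subgroupOf K < J.subgroupOf K := by
      refine lt_of_le_of_ne (fun x hx => Subgroup.mem_subgroupOf.mpr
        (hHJ (Subgroup.mem_subgroupOf.mp hx))) ?_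
      intro he
      have h1 : (⟨_, hinK b⟩ : K) ∈ J.subgroupOf K := by
        refine Subgroup.mem_subgroupOf.mpr ⟨P.one_mem, ?_⟩
        exact hbW
      rw [← he] at h1
      obtain ⟨q, _, hq⟩ := Subgroup.mem_subgroupOf.mp h1
      have h2 := congrArg (fun x : AG d F => x.left) hq
      simp only [left_inr, left_inl] at h2
      exact hb (Multiplicative.ofAdd.injective h2.symm)
    have htop := hco.2 _ hlt
    have h1 : (⟨_, hinK c⟩ : K) ∈ J.subgroupOf K := by
      rw [htop]
      trivial
    exact hc (Subgroup.mem_subgroupOf.mp h1).2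

end Cfsg.Agent.Lib.Affine.Semi
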